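import Mathlib
import Cfsg.Agent.Lib.Helper32.Scn.Defs

/-!
# S1904, package BD (helper62 for helper32)

Group form of helper51's `LemBound4`: if `|omZ X| = 4`, `omZ X ≤ W`, squares and commutators of
`W` lie in `omZ X` and every involution of `W` lies in `omZ X`, then `|W| ≤ 64`.

The quadratic datum lives on `W̄ = W / omZ X` with values in `T = omZ X`:
`sq (w V) = w * w`, `β w w' = sq (w w') * sq w * sq w'` (the commutator `w⁻¹ w' w w'⁻¹`).
-/

set_option autoImplicit false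

universe u

namespace Cfsg.Agent.Lib.Helper62.Scn

open Cfsg.Agent.Lib.Helper32.Scn
open Cfsg.Agent.Lib.Helper51.TI3

theorem t_cancel3 {T : Type u} [Group T] (hc : ∀ s t : T, s * t = t * s)
    (h2 : ∀ t : T, t * t = 1) (A K B : T) : A * K * B * A * B = K := by
  calc A * K * B * A * B = K * A * B * A * B := by rw [hc A K]
    _ = K * ((A * B) * (A * B)) := by group
    _ = K := by rw [h2, mul_one]

theorem t_cancel5 {T : Type u} [Group T] (hc : ∀ s t : T, s * t = t * s)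
    (h2 : ∀ t : T, t * t = 1) (A B C : T) : B * C * (A * B * C) = A := by
  calc B * C * (A * B * C) = (B * C) * (A * (B * C)) := by group
    _ = (B * C) * ((B * C) * A) := by rw [hc A (B * C)]
    _ = ((B * C) * (B * C)) * A := by group
    _ = A := by rw [h2, one_mul]

section

variable {X : Type u} [Group X]

theorem T_comm (s t : ↥(omZ X)) : s * t = t * s := Subtype.ext (omZ_comm t.2 (s : X))

theorem T_sq (t : ↥(omZ X)) : t * t = 1 := Subtype.ext (omZ_sq t.2)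

variable (W : Subgroup X) (hsq : ∀ w ∈ W, w * w ∈ omZ X)
  (hcomm : ∀ w ∈ W, ∀ w' ∈ W, w * w' * w⁻¹ * w'⁻¹ ∈ omZ X)

/-- the square map `W → omZ X` -/
def sq0 (w : ↥W) : ↥(omZ X) := ⟨(w : X) * w, hsq w w.2⟩

/-- the commutator map `W × W → omZ X` -/
def k0 (w w' : ↥W) : ↥(omZ X) := ⟨(w : X)⁻¹ * w' * w * (w' : X)⁻¹, by
  have h := hcomm (w : X)⁻¹ (W.inv_mem w.2) w' w'.2
  rwa [inv_inv] at h⟩

theorem sq0_mul (a b : ↥W) :
    sq0 W hsq (a * b) = sq0 W hsq a * k0 W hcomm a b * sq0 W hsq b := by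
  apply Subtype.ext
  show ((a * b : ↥W) : X) * ((a * b : ↥W) : X) =
    (a : X) * a * ((a : X)⁻¹ * b * a * (b : X)⁻¹) * ((b : X) * b)
  rw [Subgroup.coe_mul]
  group

theorem sq0_k0 (a b : ↥W) :
    sq0 W hsq (a * b) * sq0 W hsq a * sq0 W hsq b = k0 W hcomm a b := by
  rw [sq0_mul W hsq hcomm]
  exact t_cancel3 T_comm T_sq _ _ _

theorem k0_mul (a a' c : ↥W) :
    k0 W hcomm (a * a') c = k0 W hcomm a c * k0 W hcomm a' c := by
  apply Subtype.ext
  show ((a * a' : ↥W) : X)⁻¹ * c * ((a * a' : ↥W) : X) * (c : X)⁻¹ =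
    ((a : X)⁻¹ * c * a * (c : X)⁻¹) * ((a' : X)⁻¹ * c * a' * (c : X)⁻¹)
  rw [Subgroup.coe_mul]
  have hk : (a : X)⁻¹ * c * a * (c : X)⁻¹ ∈ omZ X := (k0 W hcomm a c).2
  calc ((a : X) * a')⁻¹ * c * (a * a') * (c : X)⁻¹
      = (a' : X)⁻¹ * ((a : X)⁻¹ * c * a * (c : X)⁻¹) * (c * a' * (c : X)⁻¹) := by group
    _ = ((a : X)⁻¹ * c * a * (c : X)⁻¹) * (a' : X)⁻¹ * (c * a' * (c : X)⁻¹) := by
        rw [omZ_comm hk (a' : X)⁻¹]
    _ = ((a : X)⁻¹ * c * a * (c : X)⁻¹) * ((a' : X)⁻¹ * c * a' * (c : X)⁻¹) := by group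

theorem sq0_mul_V (a v : ↥W) (hv : (v : X) ∈ omZ X) : sq0 W hsq (a * v) = sq0 W hsq a := by
  apply Subtype.ext
  show ((a * v : ↥W) : X) * ((a * v : ↥W) : X) = (a : X) * a
  rw [Subgroup.coe_mul]
  calc (a : X) * v * (a * v) = a * (v * a) * v := by group
    _ = a * (a * v) * v := by rw [← omZ_comm hv (a : X)]
    _ = a * a * ((v : X) * v) := by group
    _ = a * a := by rw [omZ_sq hv, mul_one]

/-- the square map on `W / omZ X` -/
def sqQ (q : ↥W ⧸ (omZ X).subgroupOf W) : ↥(omZ X) :=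
  Quotient.liftOn' q (sq0 W hsq) (by
    intro a b hab
    rw [QuotientGroup.leftRel_apply] at hab
    have hb : b = a * (a⁻¹ * b) := by group
    rw [hb]
    exact (sq0_mul_V W hsq a (a⁻¹ * b) (Subgroup.mem_subgroupOf.mp hab)).symm)

theorem sqQ_mk (w : ↥W) : sqQ W hsq (QuotientGroup.mk w) = sq0 W hsq w := rfl

/-- the quadratic datum of `W` -/
def qd : QD (↥W ⧸ (omZ X).subgroupOf W) ↥(omZ X) where
  sq := sqQ W hsq
  β := fun q q' => sqQ W hsq (q * q') * sqQ W hsq q * sqQ W hsq q'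
  hW := by
    intro q
    obtain ⟨w, rfl⟩ := QuotientGroup.mk_surjective q
    rw [← QuotientGroup.mk_mul, QuotientGroup.eq_one_iff, Subgroup.mem_subgroupOf]
    exact hsq w w.2
  hT := T_sq
  sq_mul := fun q q' => (t_cancel5 T_comm T_sq _ _ _).symm
  β_mul := by
    intro q q' r
    obtain ⟨a, rfl⟩ := QuotientGroup.mk_surjective q
    obtain ⟨a', rfl⟩ := QuotientGroup.mk_surjective q'
    obtain ⟨c, rfl⟩ := QuotientGroup.mk_surjective r
    show sq0 W hsq (a * a' * c) * sq0 W hsq (a * a') * sq0 W hsq c =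
      (sq0 W hsq (a * c) * sq0 W hsq a * sq0 W hsq c) *
        (sq0 W hsq (a' * c) * sq0 W hsq a' * sq0 W hsq c)
    rw [sq0_k0 W hsq hcomm, sq0_k0 W hsq hcomm, sq0_k0 W hsq hcomm, k0_mul]

end

/-- **Package BD.** -/
theorem lemBound (h : LemBound4.{u, u}) : LemBound.{u} := by
  intro X _ _ W hV hVW hsq hcomm haniso
  have hQ := @h (↥W ⧸ (omZ X).subgroupOf W) ↥(omZ X) _ _ _ _ (qd W hsq hcomm) hV (by
    intro q hq
    obtain ⟨w, rfl⟩ := QuotientGroup.mk_surjective q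
    rw [QuotientGroup.eq_one_iff, Subgroup.mem_subgroupOf]
    apply haniso w w.2
    have h1 : sq0 W hsq w = 1 := hq
    exact congrArg Subtype.val h1)
  have hN : Nat.card ((omZ X).subgroupOf W) = 4 := by
    rw [← hV]
    exact Nat.card_congr (Subgroup.subgroupOfEquivOfLe hVW).toEquiv
  have hcard := Subgroup.card_eq_card_quotient_mul_card_subgroup ((omZ X).subgroupOf W)
  rw [hN] at hcard
  rw [hcard]
  omega

end Cfsg.Agent.Lib.Helper62.Scn
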