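import Mathlib
import Cfsg.Agent.Lib.Helper32.Scn.Defs

/-!
# S1904, package I8 (helper62 for helper32)

If `|omZ X| = 4`, there is no normal subgroup of exponent 2 and order `> 4`, and `t` is an
involution with `[g, t] ∈ omZ X` for all `g`, then `t ∈ omZ X`: otherwise `omZ X ∪ t·omZ X` is a
normal subgroup of exponent 2 and order `> 4`.
-/

set_option autoImplicit false

universe u

namespace Cfsg.Agent.Lib.Helper62.Scn

open Cfsg.Agent.Lib.Helper32.Scn

/-- `omZ X ∪ (omZ X) t` for an involution `t`. -/
def extV {X : Type u} [Group X] (t : X) (ht : t * t = 1) : Subgroup X where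
  carrier := {e | e ∈ omZ X ∨ e * t ∈ omZ X}
  one_mem' := Or.inl (omZ X).one_mem
  mul_mem' := by
    rintro a b (ha | ha) (hb | hb)
    · exact Or.inl ((omZ X).mul_mem ha hb)
    · right
      rw [mul_assoc]
      exact (omZ X).mul_mem ha hb
    · right
      have e : a * b * t = a * t * b := by
        rw [mul_assoc, ← omZ_comm hb t, ← mul_assoc]
      rw [e]
      exact (omZ X).mul_mem ha hb
    · left
      have e : a * b = a * t * (b * t) := by
        calc a * b = a * (t * t) * b := by rw [ht, mul_one]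
          _ = a * t * (t * b) := by group
          _ = a * t * (t * (b * t) * t⁻¹) := by group
          _ = a * t * ((b * t) * t * t⁻¹) := by rw [omZ_comm hb t]
          _ = a * t * (b * t) := by group
      rw [e]
      exact (omZ X).mul_mem ha hb
  inv_mem' := by
    rintro a (ha | ha)
    · exact Or.inl ((omZ X).inv_mem ha)
    · right
      have e : a⁻¹ * t = (a * t)⁻¹ := by
        have h1 : t⁻¹ = t := inv_eq_of_mul_eq_one_left ht
        calc a⁻¹ * t = t⁻¹ * (t * a⁻¹) * t := by group
          _ = t⁻¹ * (t⁻¹ * a⁻¹) * t := by rw [h1]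
          _ = t⁻¹ * (a * t)⁻¹ * t := by group
          _ = t⁻¹ * ((a * t)⁻¹ * t) := by group
          _ = t⁻¹ * (t * (a * t)⁻¹) := by rw [omZ_comm ((omZ X).inv_mem ha) t]
          _ = (a * t)⁻¹ := by group
      rw [e]
      exact (omZ X).inv_mem ha

/-- **Package I8.** -/
theorem lemInv8 : LemInv8.{u} := by
  intro X _ _ hno hV t ht hcomm
  by_contra htV
  have hnorm : (extV t ht).Normal := by
    constructor
    intro e he g
    rcases he with he | he
    · exact Or.inl ((omZ_normal (X := X)).conj_mem e he g)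
    · right
      have e1 : g * e * g⁻¹ * t = (e * t) * (g * t * g⁻¹ * t⁻¹) := by
        have h1 : t⁻¹ = t := inv_eq_of_mul_eq_one_left ht
        calc g * e * g⁻¹ * t = g * (e * t) * (t⁻¹ * g⁻¹ * t) := by group
          _ = (e * t) * g * (t⁻¹ * g⁻¹ * t) := by rw [omZ_comm he g]
          _ = (e * t) * g * (t * g⁻¹ * t⁻¹) := by rw [h1]
          _ = (e * t) * (g * t * g⁻¹ * t⁻¹) := by group
      rw [e1]
      exact (omZ X).mul_mem he (hcomm g)
  have hexp : ∀ e ∈ extV t ht, e * e = 1 := by
    rintro e (he | he)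
    · exact omZ_sq he
    · have h1 : t⁻¹ = t := inv_eq_of_mul_eq_one_left ht
      calc e * e = (e * t) * t⁻¹ * ((e * t) * t⁻¹) := by group
        _ = (e * t) * (t⁻¹ * (e * t)) * t⁻¹ := by group
        _ = (e * t) * ((e * t) * t⁻¹) * t⁻¹ := by rw [omZ_comm he t⁻¹]
        _ = (e * t) * (e * t) * (t⁻¹ * t⁻¹) := by group
        _ = 1 := by rw [omZ_sq he, h1, ht, one_mul]
  have hcard := hno (extV t ht) hnorm hexp
  have hle : omZ X ≤ extV t ht := fun v hv => Or.inl hv
  have heq : omZ X = extV t ht := Subgroup.eq_of_le_of_card_ge hle (by rw [hV]; exact hcard)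
  apply htV
  rw [heq]
  right
  rw [ht]
  exact (omZ X).one_mem

end Cfsg.Agent.Lib.Helper62.Scn
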